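/- A nilpotent group of operators without fixed points: conjugacy of supplements. -/
import Cfsg.Agent.FT.Base.Sec
import Cfsg.Agent.Lib.Glaub.Alperin

set_option autoImplicit false
set_option linter.unusedSectionVars false
set_option maxHeartbeats 200000

namespace Cfsg.Agent.Lib.Car

open Subgroup Cfsg.Agent.Lib.Core Cfsg.Agent.Lib.Glaub Cfsg.Agent.FT
open scoped commutatorElement

universe u

variable {Γ : Type u} [Group Γ] [Finite Γ] {C F H M N Q S T A X : Subgroup Γ} {c x : Γ} {t : ℕ}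

/-- the nilpotent group `F` acts on `C` without fixed points -/
structure FP (C F : Subgroup Γ) : Prop where
  nil : Group.IsNilpotent F
  inv : F ≤ 𝐍(C)
  fpf : C ⊓ 𝐍(F) = ⊥

/-- every supplement to `C` in `C F` contains a conjugate of `F` -/
def BB (C F : Subgroup Γ) : Prop := ∀ H, H ≤ C ⊔ F → F ≤ C ⊔ H → ∃ c ∈ C, cj(c, F) ≤ H

theorem ded (hA : A ≤ M) (hn : A ≤ 𝐍(C)) (hX : X ≤ M) (h : X ≤ C ⊔ A) : X ≤ C ⊓ M ⊔ A := by
  rw [sup_comm, ← sup_inf_of_le_normalizer_right hA hn, sup_comm]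
  exact le_inf h hX

namespace FP
variable (h : FP C F)
include h

theorem cj (hc : c ∈ 𝐍(C)) : FP C cj(c, F) :=
  ⟨isNilpotent_cj.mpr h.nil, cj_le_of_le h.inv (le_normalizer hc), by
    rw [← cj_norm, ← cj_eq_of_mem_norm hc, ← cj_inf, h.fpf, cj_bot]⟩

theorem sub (hN : N ≤ C) (hn : F ≤ 𝐍(N)) : FP N F :=
  ⟨h.nil, hn, le_bot_iff.mp (h.fpf ▸ inf_le_inf_right _ hN)⟩

theorem nC : C ⊔ F ≤ 𝐍(C) := sup_le le_normalizer h.inv

omit h in
theorem cj_le (hc : c ∈ C) : cj(c, F) ≤ C ⊔ F := cj_le_of_le_of_mem le_sup_right (mem_sup_left hc)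

omit h in
theorem le_cj (hc : c ∈ C) : F ≤ C ⊔ cj(c, F) := by
  have := cj_le (F := cj(c, F)) (inv_mem hc)
  rwa [cj_inv_cj] at this

theorem mem_of_cj (hB : BB N F) (hN : N ≤ C) (hx : x ∈ C) (h1 : cj(x, F) ≤ N ⊔ F)
    (h2 : F ≤ N ⊔ cj(x, F)) : x ∈ N := by
  obtain ⟨n, hn, e⟩ := hB _ h1 h2
  rw [le_cj_iff_cj_inv_le, cj_cj] at e
  have : x⁻¹ * n ∈ C ⊓ 𝐍(F) := mem_inf.mpr ⟨C.mul_mem (C.inv_mem hx) (hN hn), mem_normalizer_of_cj_le e⟩
  rw [h.fpf, mem_bot, inv_mul_eq_one] at this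
  exact this ▸ hn

theorem bar (hB : BB N F) (hN : N ≤ C) {Y : Type u} [Group Y] (f : (C ⊔ F : Subgroup Γ) →* Y)
    (hk : kerOf f = N) : FP (Core.bar f C) (Core.bar f F) := by
  refine ⟨isNilpotent_bar f le_sup_right h.nil, bar_le_normalizer f h.inv, le_bot_iff.mp ?_⟩
  rintro _ ⟨⟨x, hx, rfl⟩, hy⟩
  have e : Core.bar f cj((x : Γ), F) = Core.bar f F := by
    rw [bar_cj f F x.2]; exact cj_eq_of_mem_norm hy
  have hx' : (x : Γ) ∈ C := hx
  have a1 := (bar_le_bar_iff f (cj_le hx') le_sup_right).mp e.le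
  have a2 := (bar_le_bar_iff f le_sup_right (cj_le hx')).mp e.ge
  rw [hk] at a1 a2
  have hxN := h.mem_of_cj hB hN hx' (a1.trans (sup_comm _ _).le) (a2.trans (sup_comm _ _).le)
  exact (mem_kerOf f).mp (hk ▸ hxN)

/-- the Frattini step -/
theorem fr [Fact t.Prime] (hM : M ≤ C ⊔ F) (hF : F ≤ C ⊔ M)
    (hS : IsSyl t S (M ⊓ (C ⊔ OpOf t F))) : OpOf t F ≤ C ⊔ S ∧ F ≤ C ⊔ M ⊓ 𝐍(S) := by
  have hD : C ⊔ OpOf t F ≤ C ⊔ F := sup_le_sup_left (OpOf_le F) _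
  have nD : C ⊔ F ≤ 𝐍((C ⊔ OpOf t F : Subgroup Γ)) := sup_le (le_normalizer_of_le le_sup_left)
    (le_normalizer_sup h.inv (le_normalizer_OpOf le_normalizer))
  have h1 : OpOf t F ≤ C ⊔ M ⊓ (C ⊔ OpOf t F) := by
    rw [← sup_inf_of_le_normalizer_left le_sup_left (hM.trans h.nC)]
    exact le_inf ((OpOf_le F).trans hF) le_sup_right
  obtain ⟨Y, _, _, f, -, hk, -⟩ := exists_bar (le_sup_left : C ≤ C ⊔ F) h.nC
  have hb : Core.bar f (C ⊔ OpOf t F) = Core.bar f (OpOf t F) := by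
    rw [sup_comm C (OpOf t F), ← bar_sup_kerOf f ((OpOf_le F).trans le_sup_right), hk]
  have hL : M ⊓ (C ⊔ OpOf t F) ≤ C ⊔ F := inf_le_left.trans hM
  have s1 := hS.bar f hL
  have e := s1.eq_of_le ((isPGroup_bar f (OpOf_isPGroup F)).to_le
    ((bar_mono f inf_le_right).trans hb.le)) s1.le le_rfl
  have h2 : M ⊓ (C ⊔ OpOf t F) ≤ C ⊔ S := by
    have := (bar_le_bar_iff f hL (hS.le.trans hL)).mp e.le
    rwa [hk, sup_comm S] at this
  refine ⟨h1.trans (sup_le le_sup_left h2), hF.trans (sup_le le_sup_left ?_)⟩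
  refine (hS.frattini_sup inf_le_left
    (le_normalizer_inf le_normalizer (hM.trans nD))).ge.trans (sup_le (h2.trans ?_) le_sup_right)
  exact sup_le_sup_left (le_inf (hS.le.trans inf_le_left) le_normalizer) _

theorem not_norm [Fact t.Prime] (simp : ∀ N, N ≤ C → C ⊔ F ≤ 𝐍(N) → N = ⊥ ∨ N = C)
    (ht : ¬ OpOf t F ≤ 𝐂(C)) (hQ : IsPGroup t Q) (h1 : Q ≤ C ⊔ F) (h2 : OpOf t F ≤ C ⊔ Q)
    (h3 : F ≤ C ⊔ (C ⊔ F) ⊓ 𝐍(Q)) : ¬ C ≤ 𝐍(Q) := by
  intro hC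
  have hF : F ≤ 𝐍(Q) := h3.trans (sup_le hC inf_le_right)
  have nt : F ≤ 𝐍(OpOf t F) := le_normalizer_OpOf le_normalizer
  have tC : OpOf t F ≤ 𝐍(C) := (OpOf_le F).trans h.inv
  have tQ : OpOf t F ≤ 𝐍(Q) := (OpOf_le F).trans hF
  rcases simp (C ⊓ Q) inf_le_left (le_normalizer_inf h.nC (sup_le hC hF)) with e | e
  · have cQ : C ≤ 𝐂(Q) := le_centralizer_of_inf_eq_bot hC (h1.trans h.nC) e
    have pE : IsPGroup t (C ⊓ (OpOf t F ⊔ Q) : Subgroup Γ) :=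
      (isPGroup_sup_of_le_normalizer (OpOf_isPGroup F) hQ tQ).to_inf_right
    have nE : F ≤ 𝐍((C ⊓ (OpOf t F ⊔ Q) : Subgroup Γ)) :=
      le_normalizer_inf h.inv (le_normalizer_sup nt hF)
    have E0 : C ⊓ (OpOf t F ⊔ Q) ≠ ⊥ := fun e0 => ht (by
      have := ded le_sup_right (h1.trans h.nC) le_sup_left h2
      rw [e0, bot_sup_eq] at this
      exact this.trans (cent_comm.mp cQ))
    refine inf_centralizer_ne_bot (OpOf_isPGroup F) pE ((OpOf_le F).trans nE) E0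
      (le_bot_iff.mp (le_trans (le_inf (inf_le_left.trans inf_le_left) ?_) h.fpf.le))
    refine le_trans ?_ (cent_le_norm F)
    conv_rhs => rw [← OpOf_sup_OppOf (p := t) h.nil]
    refine le_centralizer_sup inf_le_right (inf_le_left.trans (comm_eq_bot_iff.mp ?_))
    refine le_bot_iff.mp (e.le.trans' (le_inf ((commutator_mono inf_le_left le_rfl).trans
      (comm_le_left ((OppOf_le F).trans h.inv))) ((commutator_mono inf_le_right le_rfl).trans ?_)))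
    refine commutator_sup_left_le ?_ (comm_le_left ((OppOf_le F).trans hF)) (sup_le tQ le_normalizer)
    rw [comm_eq_bot_iff.mpr (OpOf_le_centralizer_OppOf F)]; exact bot_le
  · have pC : IsPGroup t C := hQ.to_le (e.ge.trans inf_le_right)
    have C0 : C ≠ ⊥ := fun e0 => ht (e0 ▸ le_cent_bot)
    have z := inf_centralizer_ne_bot (isPGroup_sup_of_le_normalizer (OpOf_isPGroup F) pC tC) pC
      (sup_le tC le_normalizer) C0
    rcases simp _ inf_le_left (le_normalizer_inf h.nC (le_normalizer_centralizer (sup_le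
      (le_normalizer_of_le le_sup_right) (le_normalizer_sup nt h.inv)))) with e' | e'
    · exact z e'
    · exact ht (cent_comm.mp (le_cent_of_le (e'.ge.trans inf_le_right) le_sup_left))

theorem step (ih : ∀ C' F' : Subgroup Γ, C' < C → FP C' F' → BB C' F') (hQ : ¬ C ≤ 𝐍(Q))
    (hP : ∃ c ∈ C, cj(c, F) ≤ 𝐍(Q)) (hH : H ≤ (C ⊔ F) ⊓ 𝐍(Q)) (hF : F ≤ C ⊔ H) :
    ∃ c ∈ C, cj(c, F) ≤ H := by
  obtain ⟨c, hc, hP⟩ := hP
  have h' := h.cj (le_normalizer hc)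
  have hH1 : H ≤ C ⊔ F := hH.trans inf_le_left
  obtain ⟨d, hd, e⟩ := ih (C ⊓ 𝐍(Q)) cj(c, F) (lt_of_le_of_ne inf_le_left
    fun e => hQ (e.ge.trans inf_le_right)) (h'.sub inf_le_left (le_normalizer_inf h'.inv
    (le_normalizer_of_le hP))) H
    (ded hP h'.inv (hH.trans inf_le_right) (hH1.trans (sup_le le_sup_left (le_cj hc))))
    (ded (hH.trans inf_le_right) (hH1.trans h.nC) hP ((cj_le hc).trans (sup_le le_sup_left hF)))
  exact ⟨d * c, mul_mem hd.1 hc, cj_cj F d c ▸ e⟩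

theorem syl [Fact t.Prime] (hT : IsSyl t T (C ⊔ OpOf t F)) (hS : IsSyl t S (C ⊔ OpOf t F))
    (hP : ∃ c ∈ C, cj(c, F) ≤ 𝐍(T)) : ∃ c ∈ C, cj(c, F) ≤ 𝐍(S) := by
  have hD : C ⊔ OpOf t F ≤ C ⊔ F := sup_le_sup_left (OpOf_le F) _
  have h0 : IsSyl t T ((C ⊔ F) ⊓ (C ⊔ OpOf t F)) := by rw [inf_eq_right.mpr hD]; exact hT
  have h1 := (h.fr le_rfl (le_sup_of_le_right le_sup_right) h0).1
  obtain ⟨d, hd, e1⟩ := hT.exists_conj hS
  have h2 : C ⊔ OpOf t F ≤ C ⊔ T := sup_le le_sup_left h1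
  obtain ⟨y, hy, z, hz, e2⟩ := (mem_sup_of_le_normalizer_left
    ((hT.le.trans hD).trans h.nC)).mp (h2 hd)
  obtain ⟨c, hc, e⟩ := hP
  refine ⟨y * c, C.mul_mem hy hc, ?_⟩
  have e3 : cj(y, T) = S := by
    rw [← e1, ← e2, ← cj_cj T y z, cj_eq_of_mem hz]
  have e4 : cj(y, cj(c, F)) ≤ 𝐍(cj(y, T)) := cj_le_norm_cj.mpr e
  rwa [e3, cj_cj] at e4

theorem simple (ih : ∀ C' F' : Subgroup Γ, C' < C → FP C' F' → BB C' F')
    (simp : ∀ N, N ≤ C → C ⊔ F ≤ 𝐍(N) → N = ⊥ ∨ N = C) : BB C F := by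
  intro H hH hF
  by_cases hc : F ≤ 𝐂(C)
  · have : C = ⊥ := by
      rw [← h.fpf]; exact (inf_eq_left.mpr ((cent_comm.mp hc).trans (cent_le_norm F))).symm
    exact ⟨1, one_mem _, by rwa [cj_one, ← bot_sup_eq H, ← this]⟩
  obtain ⟨t, tp, ht⟩ : ∃ t : ℕ, t.Prime ∧ ¬ OpOf t F ≤ 𝐂(C) := by
    by_contra hh
    push Not at hh
    exact hc (le_of_isNilpotent_of_forall_OpOf h.nil hh)
  haveI := Fact.mk tp
  have hD : C ⊔ OpOf t F ≤ C ⊔ F := sup_le_sup_left (OpOf_le F) _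
  obtain ⟨T, hT⟩ := exists_isSyl t (C ⊔ OpOf t F)
  have key : ∀ Q : Subgroup Γ, IsPGroup t Q → Q ≤ C ⊔ OpOf t F → OpOf t F ≤ C ⊔ Q →
      F ≤ C ⊔ (C ⊔ F) ⊓ 𝐍(Q) →
      ((∃ c ∈ C, cj(c, F) ≤ 𝐍(Q)) ↔ ∃ c ∈ C, cj(c, F) ≤ 𝐍(T)) := by
    intro Q
    induction Q using subgroup_induction_gt with
    | h Q ihQ =>
    intro q1 q2 q3 q4
    obtain ⟨S, hS, hQS⟩ := exists_isSyl_ge q1
      (le_inf (le_inf (q2.trans hD) le_normalizer) q2 : Q ≤ (C ⊔ F) ⊓ 𝐍(Q) ⊓ (C ⊔ OpOf t F))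
    rcases hQS.eq_or_lt with rfl | hlt
    · have : IsSyl t Q (C ⊔ OpOf t F) := isSyl_of_isSyl_normalizer (by
        rwa [inf_right_comm, inf_eq_right.mpr hD] at hS)
      exact ⟨h.syl this hT, h.syl hT this⟩
    obtain ⟨s3, s4⟩ := h.fr inf_le_left q4 hS
    have s2 : S ≤ C ⊔ OpOf t F := hS.le.trans inf_le_right
    have s5 : (C ⊔ F) ⊓ 𝐍(Q) ⊓ 𝐍(S) ≤ (C ⊔ F) ⊓ 𝐍(S) := inf_le_inf_right _ inf_le_left
    have s4' := s4.trans (sup_le_sup_left s5 C)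
    rw [← ihQ S hlt hS.isPGroup s2 s3 s4']
    constructor
    · intro hP
      obtain ⟨c, hc, e⟩ := h.step ih (h.not_norm simp ht q1 (q2.trans hD) q3 q4) hP inf_le_left s4
      exact ⟨c, hc, e.trans inf_le_right⟩
    · intro hP
      obtain ⟨c, hc, e⟩ := h.step ih (h.not_norm simp ht hS.isPGroup (s2.trans hD) s3 s4') hP s5 s4
      exact ⟨c, hc, e.trans (inf_le_left.trans inf_le_right)⟩
  have nt : F ≤ 𝐍(OpOf t F) := le_normalizer_OpOf le_normalizer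
  have p1 := (key _ (OpOf_isPGroup F) le_sup_right le_sup_right
    (le_sup_of_le_right (le_inf le_sup_right nt))).mp ⟨1, one_mem _, by rwa [cj_one]⟩
  obtain ⟨Q, hQ⟩ := exists_isSyl t (H ⊓ (C ⊔ OpOf t F))
  obtain ⟨q3, q4⟩ := h.fr hH hF hQ
  have q2 : Q ≤ C ⊔ OpOf t F := hQ.le.trans inf_le_right
  have q5 : H ⊓ 𝐍(Q) ≤ (C ⊔ F) ⊓ 𝐍(Q) := inf_le_inf_right _ hH
  have q4' := q4.trans (sup_le_sup_left q5 C)
  obtain ⟨c, hc, e⟩ := h.step ih (h.not_norm simp ht hQ.isPGroup (q2.trans hD) q3 q4')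
    ((key Q hQ.isPGroup q2 q3 q4').mpr p1) q5 q4
  exact ⟨c, hc, e.trans inf_le_left⟩

end FP

theorem bb_aux (n : ℕ) : ∀ (Γ : Type u) [Group Γ] [Finite Γ] (C F : Subgroup Γ), Nat.card C = n →
    FP C F → BB C F := by
  induction n using Nat.strong_induction_on with
  | _ n ih =>
  intro Γ _ _ C F hn h
  have ih' : ∀ C' F' : Subgroup Γ, C' < C → FP C' F' → BB C' F' := fun C' F' hl h' =>
    ih _ (hn ▸ card_lt_of_lt hl) Γ C' F' rfl h'
  by_cases simp : ∀ N, N ≤ C → C ⊔ F ≤ 𝐍(N) → N = ⊥ ∨ N = C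
  · exact h.simple ih' simp
  push Not at simp
  obtain ⟨N, hN, nN, N0, N1⟩ := simp
  have hl : N < C := lt_of_le_of_ne hN N1
  have nF : F ≤ 𝐍(N) := le_sup_right.trans nN
  obtain ⟨Y, _, _, f, -, hk, -⟩ := exists_bar (hN.trans le_sup_left) nN
  have hb := h.bar (ih' N F hl (h.sub hN nF)) hN f hk
  have lt : Nat.card (Core.bar f C) < n := by
    have e := card_bar_mul f (A := C) le_sup_left
    rw [hk, inf_eq_left.mpr hN, hn] at e
    have a1 := one_lt_card_iff.mpr N0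
    have a2 := card_pos (Core.bar f C)
    nlinarith
  intro H hH hF
  obtain ⟨_, ⟨c, hc, rfl⟩, e⟩ := ih _ lt Y _ _ rfl hb (Core.bar f H)
    (by rw [← bar_sup f le_sup_left le_sup_right]; exact bar_mono f hH)
    (by rw [← bar_sup f le_sup_left hH]; exact bar_mono f hF)
  have hc' : (c : Γ) ∈ C := hc
  rw [← bar_cj f F c.2, bar_le_bar_iff f (FP.cj_le hc') hH, hk] at e
  have h' := h.cj (le_normalizer hc')
  obtain ⟨d, hd, e'⟩ := ih' N _ hl (h'.sub hN ((FP.cj_le hc').trans nN)) (H ⊓ (N ⊔ cj((c : Γ), F)))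
    inf_le_right (by
      rw [← sup_inf_of_le_normalizer_left le_sup_left (hH.trans nN), sup_comm N H]
      exact le_inf e le_sup_right)
  exact ⟨d * c, mul_mem (hN hd) hc', cj_cj F d c ▸ e'.trans inf_le_left⟩

theorem FP.bb (h : FP C F) : BB C F := bb_aux _ Γ C F rfl h

end Cfsg.Agent.Lib.Car
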